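-- Team project JR (S3206): package [LOC] (helper46).
import Mathlib
import Cfsg.Agent.Lib.Helper35.JR.Defs

set_option autoImplicit false

namespace Cfsg.Agent.Lib.Helper46.JR

open Cfsg.Agent.Lib.Helper35.JR

universe u

/-- Elements of the join of two elementwise commuting subgroups are products. -/
theorem mem_sup_of_commute {G : Type u} [Group G] (A B : Subgroup G)
    (hc : ∀ a ∈ A, ∀ b ∈ B, a * b = b * a) {x : G} (hx : x ∈ A ⊔ B) :
    ∃ a ∈ A, ∃ b ∈ B, x = a * b := by
  let D : Subgroup G :=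
    { carrier := {x | ∃ a ∈ A, ∃ b ∈ B, x = a * b}
      mul_mem' := by
        rintro _ _ ⟨a, ha, b, hb, rfl⟩ ⟨a', ha', b', hb', rfl⟩
        refine ⟨a * a', A.mul_mem ha ha', b * b', B.mul_mem hb hb', ?_⟩
        have h := hc a' ha' b hb
        calc a * b * (a' * b') = a * (b * a') * b' := by group
          _ = a * (a' * b) * b' := by rw [h]
          _ = a * a' * (b * b') := by group
      one_mem' := ⟨1, A.one_mem, 1, B.one_mem, by simp⟩
      inv_mem' := by
        rintro _ ⟨a, ha, b, hb, rfl⟩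
        refine ⟨a⁻¹, A.inv_mem ha, b⁻¹, B.inv_mem hb, ?_⟩
        have h := hc a⁻¹ (A.inv_mem ha) b⁻¹ (B.inv_mem hb)
        rw [mul_inv_rev, h] }
  have hA : A ≤ D := fun a ha => ⟨a, ha, 1, B.one_mem, by simp⟩
  have hB : B ≤ D := fun b hb => ⟨1, A.one_mem, b, hb, by simp⟩
  exact (sup_le hA hB) hx

/-- [LOC] -/
theorem pkgLoc : PkgLoc.{u} := by
  intro G _ _ hab t ht E hE hEL ψ k hψ S htS hfix
  obtain ⟨hZC, hEC, hcomm, hinf, hsup⟩ := hE
  obtain ⟨hsq, hT4, hELaut⟩ := hEL
  have ht2 : t ^ 2 = 1 := by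
    rw [← ht]
    exact pow_orderOf_eq_one t
  have hψt : ψ t = t := hfix t htS
  have ha2 : ∀ a ∈ Subgroup.zpowers t, a ^ 2 = 1 := by
    intro a ha
    obtain ⟨n, rfl⟩ := Subgroup.mem_zpowers_iff.mp ha
    calc (t ^ n) ^ 2 = (t ^ 2) ^ n := by group
      _ = 1 := by rw [ht2, one_zpow]
  have hdec : ∀ x ∈ Subgroup.centralizer ({t} : Set G),
      ∃ a ∈ Subgroup.zpowers t, ∃ e ∈ E, x = a * e := by
    intro x hx
    rw [← hsup] at hx
    exact mem_sup_of_commute _ _ hcomm hx
  have hψC : ∀ x ∈ Subgroup.centralizer ({t} : Set G),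
      ψ x ∈ Subgroup.centralizer ({t} : Set G) := by
    intro x hx
    rw [Subgroup.mem_centralizer_iff] at hx ⊢
    intro y hy
    rw [Set.mem_singleton_iff] at hy
    rw [hy]
    have h := hx t rfl
    calc t * ψ x = ψ (t * x) := by rw [map_mul, hψt]
      _ = ψ (x * t) := by rw [h]
      _ = ψ x * t := by rw [map_mul, hψt]
  have hEcl : ∀ e ∈ E, e ∈ Subgroup.closure {y : G | ∃ x ∈ E, x ^ 2 = y} := by
    intro e he
    have h1 : (⟨e, he⟩ : E) ∈ Subgroup.closure {y : E | ∃ x : E, x ^ 2 = y} := by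
      rw [hsq]
      trivial
    have h2 := Subgroup.mem_map_of_mem E.subtype h1
    rw [MonoidHom.map_closure] at h2
    refine Subgroup.closure_mono ?_ h2
    rintro _ ⟨y, ⟨x, rfl⟩, rfl⟩
    exact ⟨x, x.2, by simp⟩
  have hψE : ∀ e ∈ E, ψ e ∈ E := by
    intro e he
    refine Subgroup.closure_induction (p := fun y _ => ψ y ∈ E) ?_ ?_ ?_ ?_ (hEcl e he)
    · rintro y ⟨x, hx, rfl⟩
      obtain ⟨a, ha, e', he', hxe⟩ := hdec (ψ x) (hψC x (hEC hx))
      rw [map_pow, hxe, (show Commute a e' from hcomm a ha e' he').mul_pow, ha2 a ha, one_mul]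
      exact E.pow_mem he' 2
    · rw [map_one]
      exact E.one_mem
    · intro x y _ _ hx hy
      rw [map_mul]
      exact E.mul_mem hx hy
    · intro x _ hx
      rw [map_inv]
      exact E.inv_mem hx
  have hψE' : ∀ e ∈ E, ψ.symm e ∈ E := by
    intro e he
    let f : E → E := fun x => ⟨ψ x, hψE x x.2⟩
    have hinj : Function.Injective f := fun a b hab =>
      Subtype.ext (ψ.injective (congrArg Subtype.val hab))
    obtain ⟨x, hx⟩ := (Finite.injective_iff_surjective.mp hinj) ⟨e, he⟩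
    have hx' : ψ x = e := congrArg Subtype.val hx
    rw [← hx', MulEquiv.symm_apply_apply]
    exact x.2
  let β : E ≃* E :=
    { toFun := fun x => ⟨ψ x, hψE x x.2⟩
      invFun := fun x => ⟨ψ.symm x, hψE' x x.2⟩
      left_inv := fun x => Subtype.ext (ψ.symm_apply_apply x)
      right_inv := fun x => Subtype.ext (ψ.apply_symm_apply x)
      map_mul' := fun x y => Subtype.ext (map_mul ψ (x : G) (y : G)) }
  have hβval : ∀ x : E, ((β x : E) : G) = ψ (x : G) := fun x => rfl
  have hpow : ∀ (n : ℕ) (x : E), (((β ^ n) x : E) : G) = (ψ ^ n) (x : G) := by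
    intro n
    induction n with
    | zero =>
      intro x
      simp
    | succ n ih =>
      intro x
      rw [pow_succ, pow_succ, MulAut.mul_apply, MulAut.mul_apply, ih, hβval]
  have hβ : β ^ (2 ^ k) = 1 := by
    apply MulEquiv.ext
    intro x
    apply Subtype.ext
    rw [hpow, hψ]
    rfl
  -- the Sylow 2-subgroup of `E` inside `S`
  have hQ : IsPGroup 2 ((S : Subgroup G).subgroupOf E) := S.isPGroup'.comap_subtype
  obtain ⟨T, hQT⟩ := hQ.exists_le_sylow
  have hTE : (T : Subgroup E).map E.subtype ≤ E := by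
    rintro _ ⟨x, _, rfl⟩
    exact x.2
  have hcommT : ∀ a ∈ Subgroup.zpowers t, ∀ b ∈ (T : Subgroup E).map E.subtype,
      a * b = b * a := fun a ha b hb => hcomm a ha b (hTE hb)
  have hHp : IsPGroup 2 ↥(Subgroup.zpowers t ⊔ (T : Subgroup E).map E.subtype) := by
    rintro ⟨h, hh⟩
    obtain ⟨a, ha, b, hb, rfl⟩ := mem_sup_of_commute _ _ hcommT hh
    refine ⟨1, ?_⟩
    apply Subtype.ext
    show (a * b) ^ (2 ^ 1) = 1
    obtain ⟨x, hxT, rfl⟩ := hb
    have hx2 : (x : E) ^ 2 = 1 := (hT4 T).2 x hxT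
    have hx2' : (E.subtype x) ^ 2 = 1 := by
      rw [← map_pow, hx2, map_one]
    rw [pow_one, (show Commute a (E.subtype x) from
      hcommT a ha _ ⟨x, hxT, rfl⟩).mul_pow, ha2 a ha, one_mul, hx2']
  have hzS : Subgroup.zpowers t ≤ (S : Subgroup G) := (Subgroup.zpowers_le).mpr htS
  have hSH : (S : Subgroup G) ≤ Subgroup.zpowers t ⊔ (T : Subgroup E).map E.subtype := by
    intro s hs
    have hsC : s ∈ Subgroup.centralizer ({t} : Set G) := by
      rw [Subgroup.mem_centralizer_iff]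
      intro y hy
      rw [Set.mem_singleton_iff] at hy
      rw [hy]
      exact hab S t htS s hs
    obtain ⟨a, ha, e, he, hse⟩ := hdec s hsC
    have heS : e ∈ (S : Subgroup G) := by
      have : e = a⁻¹ * s := by rw [hse]; group
      rw [this]
      exact Subgroup.mul_mem _ (Subgroup.inv_mem _ (hzS ha)) hs
    have heT : (⟨e, he⟩ : E) ∈ (T : Subgroup E) := hQT (Subgroup.mem_subgroupOf.mpr heS)
    rw [hse]
    exact Subgroup.mul_mem _ (Subgroup.mem_sup_left ha)
      (Subgroup.mem_sup_right ⟨⟨e, he⟩, heT, rfl⟩)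
  have hHS : Subgroup.zpowers t ⊔ (T : Subgroup E).map E.subtype = (S : Subgroup G) :=
    S.is_maximal' hHp hSH
  have hTS : ∀ x ∈ (T : Subgroup E), (x : G) ∈ (S : Subgroup G) := by
    intro x hx
    rw [← hHS]
    exact Subgroup.mem_sup_right ⟨x, hx, rfl⟩
  have hβfix : ∀ x ∈ (T : Subgroup E), β x = x := by
    intro x hx
    apply Subtype.ext
    rw [hβval]
    exact hfix x (hTS x hx)
  obtain ⟨v, hvT, hv⟩ := hELaut β k hβ T hβfix
  refine ⟨(v : G), hTS v hvT, ?_⟩
  intro x hx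
  obtain ⟨a, ha, e, he, rfl⟩ := hdec x hx
  have h1 : ψ a = a := hfix a (hzS ha)
  have h2 : ψ e = (v : G) * e * (v : G)⁻¹ := by
    have h := congrArg Subtype.val (hv ⟨e, he⟩)
    rw [hβval] at h
    exact h
  have hav := hcomm a ha (v : G) v.2
  rw [map_mul, h1, h2]
  calc a * ((v : G) * e * (v : G)⁻¹) = (a * (v : G)) * e * (v : G)⁻¹ := by group
    _ = (v : G) * a * e * (v : G)⁻¹ := by rw [hav]
    _ = (v : G) * (a * e) * (v : G)⁻¹ := by group

end Cfsg.Agent.Lib.Helper46.JR
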